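import Cfsg.Agent.Lib.Helper84.GC.Defs

set_option autoImplicit false

namespace Cfsg.Agent.Lib.Helper84.GC

open Cfsg
open scoped commutatorElement

/-- COMMPOW. Induction on n. -/
theorem comm_pow_left {P : Type*} [Group P] (z u : P) (hz : ⁅z, u⁆ ∈ Subgroup.center P) (n : ℕ) :
    ⁅z ^ n, u⁆ = ⁅z, u⁆ ^ n := by
  induction n with
  | zero => simp
  | succ n ih =>
    have h1 : ⁅z ^ (n + 1), u⁆ = z ^ n * ⁅z, u⁆ * (z ^ n)⁻¹ * ⁅z ^ n, u⁆ := by
      simp only [commutatorElement_def, pow_succ]; group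
    have h2 : z ^ n * ⁅z, u⁆ = ⁅z, u⁆ * z ^ n := (Subgroup.mem_center_iff.1 hz (z ^ n))
    rw [h1, h2, ih, mul_assoc ⁅z, u⁆, mul_inv_cancel, mul_one, pow_succ']

theorem comm_pow_right {P : Type*} [Group P] (z u : P) (hz : ⁅z, u⁆ ∈ Subgroup.center P) (n : ℕ) :
    ⁅z, u ^ n⁆ = ⁅z, u⁆ ^ n := by
  have h1 : ⁅u, z⁆ ∈ Subgroup.center P := by
    rw [← commutatorElement_inv]; exact inv_mem hz
  rw [← commutatorElement_inv, comm_pow_left u z h1 n, ← commutatorElement_inv z u, inv_pow, inv_inv]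

theorem comm_mul_central_left {P : Type*} [Group P] (z u l : P) (hl : l ∈ Subgroup.center P) :
    ⁅z * l, u⁆ = ⁅z, u⁆ := by
  have h1 : ∀ g : P, g * l = l * g := fun g => Subgroup.mem_center_iff.1 hl g
  simp only [commutatorElement_def, mul_inv_rev]
  calc z * l * u * (l⁻¹ * z⁻¹) * u⁻¹ = z * (l * u) * l⁻¹ * z⁻¹ * u⁻¹ := by group
    _ = z * (u * l) * l⁻¹ * z⁻¹ * u⁻¹ := by rw [h1 u]
    _ = z * u * z⁻¹ * u⁻¹ := by group

theorem comm_mul_central_right {P : Type*} [Group P] (z u l : P) (hl : l ∈ Subgroup.center P) :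
    ⁅z, u * l⁆ = ⁅z, u⁆ := by
  rw [← commutatorElement_inv, comm_mul_central_left u z l hl, commutatorElement_inv]

end Cfsg.Agent.Lib.Helper84.GC
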