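import Cfsg.Agent.Lib.Helper84.GC.Defs

set_option autoImplicit false

namespace Cfsg.Agent.Lib.Helper84.GC

open Cfsg
open scoped commutatorElement

theorem sameker_pow {P : Type*} [Group P] [Finite P] (χ : IrrCharacter P) (x : P)
    (hx : (χ : P → ℂ) x = (χ : P → ℂ) 1) (k : ℕ) : (χ : P → ℂ) (x ^ k) = (χ : P → ℂ) 1 := by
  have h1 : x ∈ Cfsg.Agent.Lib.Helper82.charKer (χ : P → ℂ)
      (Cfsg.Agent.Lib.Helper82.isIrr_isChar χ.2) := hx
  exact Subgroup.pow_mem _ h1 k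

/-- SAMEKER. -/
theorem same_ker {P : Type*} [Group P] [Finite P] (h : HG P) (χ ψ : IrrCharacter P)
    (hχ : charDegree (χ : P → ℂ) ≠ 1)
    (hd : charDegree (χ : P → ℂ) = charDegree (ψ : P → ℂ)) (x : P)
    (hx : (χ : P → ℂ) x = (χ : P → ℂ) 1) : (ψ : P → ℂ) x = (ψ : P → ℂ) 1 := by
  obtain ⟨k, _, hk⟩ := h χ ψ hχ hd
  rw [hk x, hk 1, one_pow, sameker_pow χ x hx k]

end Cfsg.Agent.Lib.Helper84.GC
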