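import Cfsg.Agent.Lib.Helper84.GC.Defs
import Cfsg.Agent.Lib.Helper84.GC.LINSEP
import Cfsg.Agent.Lib.Helper84.GC.SAMEKER

set_option autoImplicit false

namespace Cfsg.Agent.Lib.Helper84.GC

open Cfsg
open scoped commutatorElement

/-- KER. -/
theorem ker_le {P : Type*} [Group P] [Finite P] (h : HG P) (χ : IrrCharacter P)
    (hχ : charDegree (χ : P → ℂ) ≠ 1) (x : P) (hx : (χ : P → ℂ) x = (χ : P → ℂ) 1) :
    x ∈ commutator P := by
  by_contra hxc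
  obtain ⟨ν, hν1, hνx⟩ := linsep x hxc
  have hirr : IsIrrCharacter P ((ν : P → ℂ) * (χ : P → ℂ)) :=
    Cfsg.Agent.Lib.Helper82.isIrr_linear_mul (Cfsg.Agent.Lib.Helper82.isIrr_isChar ν.2) hν1 χ.2
  have hdeg : charDegree (χ : P → ℂ) = charDegree ((ν : P → ℂ) * (χ : P → ℂ)) := by
    unfold charDegree
    rw [Pi.mul_apply, hν1, one_mul]
  obtain ⟨k, _, hk⟩ := h χ ⟨_, hirr⟩ hχ hdeg
  have h1 := hk x
  rw [sameker_pow χ x hx k] at h1
  change (ν : P → ℂ) x * (χ : P → ℂ) x = (χ : P → ℂ) 1 at h1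
  rw [hx] at h1
  have h0 := Cfsg.Agent.Lib.Helper82.isIrr_one_ne_zero χ.2
  apply hνx
  have h2 : ((ν : P → ℂ) x - 1) * (χ : P → ℂ) 1 = 0 := by linear_combination h1
  rcases mul_eq_zero.1 h2 with h3 | h3
  · linear_combination h3
  · exact absurd h3 h0

end Cfsg.Agent.Lib.Helper84.GC
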