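import Cfsg.Agent.Lib.Helper84.GC.Defs
import Cfsg.Agent.Lib.Helper84.GC.LINSEP

set_option autoImplicit false

namespace Cfsg.Agent.Lib.Helper84.GC

open Cfsg
open scoped commutatorElement

/-- NONLIN. -/
theorem exists_nonlinear {Q : Type*} [Group Q] [Finite Q] (h : commutator Q ≠ ⊥) :
    ∃ χ : IrrCharacter Q, charDegree (χ : Q → ℂ) ≠ 1 := by
  by_contra hcon
  push Not at hcon
  apply h
  rw [Subgroup.eq_bot_iff_forall]
  intro x hx
  by_contra hx1
  obtain ⟨χ, hχ⟩ := linsep_exists_irr_ne x hx1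
  apply hχ
  have h1 : (χ : Q → ℂ) 1 = 1 := by
    rw [Cfsg.Agent.Lib.Helper82.isChar_one_eq (Cfsg.Agent.Lib.Helper82.isIrr_isChar χ.2), hcon χ]
    simp
  exact (Cfsg.Agent.Lib.Helper82.isIrr_linear_iff χ.2).1 h1 x hx

end Cfsg.Agent.Lib.Helper84.GC
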