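import Cfsg.Agent.Lib.Helper84.GC.Defs
import Cfsg.Agent.Lib.Helper84.GC.NONLIN
import Cfsg.Agent.Lib.Helper84.GC.KER

set_option autoImplicit false

namespace Cfsg.Agent.Lib.Helper84.GC

open Cfsg
open scoped commutatorElement

/-- CMP. -/
theorem cmp {P : Type*} [Group P] [Finite P] (h : HG P) (K : Subgroup P) [K.Normal] :
    commutator P ≤ K ∨ K ≤ commutator P := by
  by_cases hK : commutator (P ⧸ K) = ⊥
  · left
    have h1 : Subgroup.map (QuotientGroup.mk' K) (commutator P) = commutator (P ⧸ K) := by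
      rw [commutator_def, commutator_def, Subgroup.map_commutator, ← MonoidHom.range_eq_map,
        MonoidHom.range_eq_top.2 (QuotientGroup.mk'_surjective K)]
    rw [hK, Subgroup.map_eq_bot_iff, QuotientGroup.ker_mk'] at h1
    exact h1
  · right
    obtain ⟨ψ, hψ⟩ := exists_nonlinear hK
    intro x hx
    refine ker_le h ⟨fun g => (ψ : P ⧸ K → ℂ) (g : P ⧸ K),
      Cfsg.Agent.Lib.Helper82.isIrr_inflate ψ.2⟩ hψ x ?_
    show (ψ : P ⧸ K → ℂ) (x : P ⧸ K) = (ψ : P ⧸ K → ℂ) ((1 : P) : P ⧸ K)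
    rw [(QuotientGroup.eq_one_iff x).2 hx]
    rfl

end Cfsg.Agent.Lib.Helper84.GC
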