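import Cfsg.Agent.Lib.Helper84.GC.Defs
import Cfsg.Agent.Lib.Helper84.GC.CMP

set_option autoImplicit false

namespace Cfsg.Agent.Lib.Helper84.GC

open Cfsg
open scoped commutatorElement

theorem cyc_normal_zpowers {Q : Type*} [Group Q] (x : Q) (hx : x ∈ Subgroup.center Q) :
    (Subgroup.zpowers x).Normal := by
  have h1 : Subgroup.zpowers x ≤ Subgroup.center Q := by
    rw [Subgroup.zpowers_le]; exact hx
  constructor
  intro n hn g
  have h2 := Subgroup.mem_center_iff.1 (h1 hn) g
  rw [h2, mul_assoc, mul_inv_cancel, mul_one]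
  exact hn

theorem cyc_eq {Q : Type*} [Group Q] [Finite Q] (p : ℕ) [Fact p.Prime]
    (h : HG Q) (hc : Nat.card (commutator Q) = p) (x : Q) (hx : x ∈ Subgroup.center Q)
    (hxo : orderOf x = p) : Subgroup.zpowers x = commutator Q := by
  have := cyc_normal_zpowers x hx
  have hcard : Nat.card (Subgroup.zpowers x) = p := by rw [Nat.card_zpowers, hxo]
  rcases cmp h (Subgroup.zpowers x) with h1 | h1
  · exact (Subgroup.eq_of_le_of_card_ge h1 (by rw [hcard, hc])).symm
  · exact Subgroup.eq_of_le_of_card_ge h1 (by rw [hcard, hc])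

/-- CYC. -/
theorem center_cyclic {Q : Type*} [Group Q] [Finite Q] (p : ℕ) [Fact p.Prime] (hQ : IsPGroup p Q)
    (h : HG Q) (hc : Nat.card (commutator Q) = p) : IsCyclic (Subgroup.center Q) := by
  apply Cfsg.Agent.Lib.Helper59.isCyclic_of_unique_of_comm (p := p)
    (hQ.to_subgroup (Subgroup.center Q))
  · intro x y hx hy
    have h1 := cyc_eq p h hc x.1 x.2 (by rw [Subgroup.orderOf_coe]; exact hx)
    have h2 := cyc_eq p h hc y.1 y.2 (by rw [Subgroup.orderOf_coe]; exact hy)
    have h3 : y.1 ∈ Subgroup.zpowers x.1 := by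
      rw [h1, ← h2]; exact Subgroup.mem_zpowers _
    obtain ⟨k, hk⟩ := Subgroup.mem_zpowers_iff.1 h3
    rw [Subgroup.mem_zpowers_iff]
    exact ⟨k, Subtype.ext (by simpa using hk)⟩
  · intro x y
    exact Subtype.ext (Subgroup.mem_center_iff.1 y.2 x.1)

end Cfsg.Agent.Lib.Helper84.GC
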