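import Cfsg.Agent.Lib.Helper84.GC.Defs

set_option autoImplicit false

namespace Cfsg.Agent.Lib.Helper84.GC

open Cfsg
open scoped commutatorElement

theorem qc_map {P : Type*} [Group P] (L : Subgroup P) [L.Normal] :
    Subgroup.map (QuotientGroup.mk' L) (commutator P) = commutator (P ⧸ L) := by
  rw [commutator_def, commutator_def, Subgroup.map_commutator, ← MonoidHom.range_eq_map,
    MonoidHom.range_eq_top.2 (QuotientGroup.mk'_surjective L)]

/-- QC. -/
theorem card_comm_quot {P : Type*} [Group P] [Finite P] (L : Subgroup P) [L.Normal]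
    (hLc : L ≤ commutator P) :
    Nat.card (commutator (P ⧸ L)) * Nat.card L = Nat.card (commutator P) := by
  have h1 : Subgroup.comap (QuotientGroup.mk' L) (commutator (P ⧸ L)) = commutator P := by
    rw [← qc_map, Subgroup.comap_map_eq, QuotientGroup.ker_mk']
    exact sup_eq_left.2 hLc
  rw [← h1, mul_comm, ← Nat.card_prod]
  exact (Nat.card_congr
    (QuotientGroup.preimageMkEquivSubgroupProdSet L (commutator (P ⧸ L) : Set (P ⧸ L)))).symm

end Cfsg.Agent.Lib.Helper84.GC
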