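import Cfsg.Agent.Lib.Helper84.GC.Defs

set_option autoImplicit false

namespace Cfsg.Agent.Lib.Helper84.GC

open Cfsg
open scoped commutatorElement

/-- QUOT. -/
theorem hg_quot {P : Type*} [Group P] [Finite P] (h : HG P) (K : Subgroup P) [K.Normal] :
    HG (P ⧸ K) := by
  intro χ ψ hχ hd
  obtain ⟨k, hk, hk2⟩ := h ⟨fun g => (χ : P ⧸ K → ℂ) (g : P ⧸ K),
      Cfsg.Agent.Lib.Helper82.isIrr_inflate χ.2⟩ ⟨fun g => (ψ : P ⧸ K → ℂ) (g : P ⧸ K),
      Cfsg.Agent.Lib.Helper82.isIrr_inflate ψ.2⟩ hχ hd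
  refine ⟨k, ?_, ?_⟩
  · apply Nat.Coprime.coprime_dvd_right _ hk
    rw [← Subgroup.index_eq_card]
    exact Subgroup.index_dvd_card K
  · intro q
    obtain ⟨g, rfl⟩ := QuotientGroup.mk_surjective q
    exact hk2 g

end Cfsg.Agent.Lib.Helper84.GC
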