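import Cfsg.Agent.Lib.Helper84.GC.Defs
import Cfsg.Agent.Lib.Helper84.GC.CYC
import Cfsg.Agent.Lib.Helper84.GC.QUOT
import Cfsg.Agent.Lib.Helper84.GC.QC

set_option autoImplicit false

namespace Cfsg.Agent.Lib.Helper84.GC

open Cfsg
open scoped commutatorElement

theorem la_card {P : Type*} [Group P] [Finite P] (p : ℕ) [Fact p.Prime]
    (hc : Nat.card (commutator P) = p ^ 2) (L : Subgroup P) [L.Normal]
    (hL : Nat.card L = p) (hLc : L ≤ commutator P) : Nat.card (commutator (P ⧸ L)) = p := by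
  have hp : p.Prime := Fact.out
  have h1 := card_comm_quot L hLc
  rw [hL, hc, sq] at h1
  exact Nat.eq_of_mul_eq_mul_right hp.pos h1

/-- LA. -/
theorem zl_gen {P : Type*} [Group P] [Finite P] (p : ℕ) [Fact p.Prime] (hP : IsPGroup p P)
    (h : HG P) (hc : Nat.card (commutator P) = p ^ 2) (L : Subgroup P) [L.Normal]
    (hL : Nat.card L = p) (hLc : L ≤ commutator P) :
    ∃ g ∈ ZL L, ∀ z ∈ ZL L, ∃ a : ℕ, ∃ l ∈ L, z = g ^ a * l := by
  have hcyc : IsCyclic (Subgroup.center (P ⧸ L)) :=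
    center_cyclic p (hP.to_quotient L) (hg_quot h L) (la_card p hc L hL hLc)
  obtain ⟨q, hq⟩ := IsCyclic.exists_monoid_generator (α := Subgroup.center (P ⧸ L))
  obtain ⟨g, hg⟩ := QuotientGroup.mk_surjective q.1
  refine ⟨g, ?_, ?_⟩
  · show (g : P ⧸ L) ∈ Subgroup.center (P ⧸ L)
    rw [hg]; exact q.2
  · intro z hz
    obtain ⟨a, ha⟩ := hq ⟨(z : P ⧸ L), hz⟩
    refine ⟨a, (g ^ a)⁻¹ * z, ?_, by group⟩
    have h1 : ((g ^ a : P) : P ⧸ L) = (z : P ⧸ L) := by
      have h2 := congrArg Subtype.val ha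
      simp only [Subgroup.coe_pow] at h2
      rw [← hg] at h2
      exact h2
    exact QuotientGroup.eq.1 h1

end Cfsg.Agent.Lib.Helper84.GC
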