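import Cfsg.Agent.Lib.Helper84.GC.Defs
import Cfsg.Agent.Lib.Helper84.GC.COMMPOW

set_option autoImplicit false

namespace Cfsg.Agent.Lib.Helper84.GC

open Cfsg
open scoped commutatorElement

/-- POWP. -/
theorem pow_p_mem_center {Q : Type*} [Group Q] [Finite Q] (p : ℕ) [Fact p.Prime]
    (hQ : IsPGroup p Q) (hc : Nat.card (commutator Q) = p) (x : Q) :
    x ^ p ∈ Subgroup.center Q := by
  have hcz : commutator Q ≤ Subgroup.center Q :=
    Cfsg.Agent.Lib.Helper67.le_center_of_normal_card_eq hQ (commutator Q) hc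
  rw [Subgroup.mem_center_iff]
  intro u
  have hz : ⁅x, u⁆ ∈ commutator Q :=
    Subgroup.commutator_mem_commutator (Subgroup.mem_top _) (Subgroup.mem_top _)
  have h1 := comm_pow_left x u (hcz hz) p
  have h2 : ⁅x, u⁆ ^ p = 1 := by
    have h3 : (⟨⁅x, u⁆, hz⟩ : commutator Q) ^ Nat.card (commutator Q) = 1 := pow_card_eq_one'
    rw [hc] at h3
    exact congrArg Subtype.val h3
  rw [h2, commutatorElement_eq_one_iff_mul_comm] at h1
  exact h1.symm

end Cfsg.Agent.Lib.Helper84.GC
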