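import Cfsg.Agent.Lib.Helper84.GC.Defs
import Cfsg.Agent.Lib.Helper84.GC.POWP
import Cfsg.Agent.Lib.Helper84.GC.QC
import Cfsg.Agent.Lib.Helper84.GC.LA

set_option autoImplicit false

namespace Cfsg.Agent.Lib.Helper84.GC

open Cfsg
open scoped commutatorElement

/-- LC. -/
theorem zl_pow {P : Type*} [Group P] [Finite P] (p : ℕ) [Fact p.Prime] (hP : IsPGroup p P)
    (hc : Nat.card (commutator P) = p ^ 2) (L : Subgroup P) [L.Normal]
    (hL : Nat.card L = p) (hLc : L ≤ commutator P) (x : P) : x ^ p ∈ ZL L :=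
  pow_p_mem_center p (hP.to_quotient L) (la_card p hc L hL hLc) (x : P ⧸ L)

end Cfsg.Agent.Lib.Helper84.GC
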