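import Cfsg.Agent.Lib.Helper84.GC.Defs

set_option autoImplicit false

namespace Cfsg.Agent.Lib.Helper84.GC

open Cfsg
open scoped commutatorElement

/-- MEMZL. -/
theorem mem_ZL {P : Type*} [Group P] (L : Subgroup P) [L.Normal] (x : P) :
    x ∈ ZL L ↔ ∀ u : P, ⁅x, u⁆ ∈ L := by
  unfold ZL
  rw [Subgroup.mem_comap, Subgroup.mem_center_iff]
  constructor
  · intro h u
    rw [← QuotientGroup.eq_one_iff]
    have h1 := h (u : P ⧸ L)
    have h2 : ((⁅x, u⁆ : P) : P ⧸ L) = ⁅(x : P ⧸ L), (u : P ⧸ L)⁆ := rfl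
    rw [h2, commutatorElement_eq_one_iff_mul_comm]
    exact h1.symm
  · intro h q
    obtain ⟨u, rfl⟩ := QuotientGroup.mk_surjective q
    have h1 := (QuotientGroup.eq_one_iff _).2 (h u)
    have h2 : ((⁅x, u⁆ : P) : P ⧸ L) = ⁅(x : P ⧸ L), (u : P ⧸ L)⁆ := rfl
    rw [h2, commutatorElement_eq_one_iff_mul_comm] at h1
    exact h1.symm

theorem card_ZL {P : Type*} [Group P] [Finite P] (L : Subgroup P) [L.Normal] :
    Nat.card (ZL L) = Nat.card (Subgroup.center (P ⧸ L)) * Nat.card L := by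
  unfold ZL
  rw [mul_comm, ← Nat.card_prod]
  exact Nat.card_congr
    (QuotientGroup.preimageMkEquivSubgroupProdSet L (Subgroup.center (P ⧸ L) : Set (P ⧸ L)))

end Cfsg.Agent.Lib.Helper84.GC
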