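import Cfsg.Agent.Lib.Helper84.GC.Defs
import Cfsg.Agent.Lib.Helper84.GC.LA
import Cfsg.Agent.Lib.Helper84.GC.LC
import Cfsg.Agent.Lib.Helper84.GC.MEMZL
import Cfsg.Agent.Lib.Helper84.GC.COMMPOW

set_option autoImplicit false

namespace Cfsg.Agent.Lib.Helper84.GC

open Cfsg
open scoped commutatorElement

/-- B1F. -/
theorem b1f {P : Type*} [Group P] [Finite P] (p : ℕ) [Fact p.Prime] (hP : IsPGroup p P)
    (h : HG P) (hc : Nat.card (commutator P) = p ^ 2)
    (hcz : commutator P ≤ Subgroup.center P) (L : Subgroup P) [L.Normal]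
    (hL : Nat.card L = p) (hLc : L ≤ commutator P) (x y : P) (hxy : ⁅x, y⁆ ^ p ≠ 1) : False := by
  have hp : p.Prime := Fact.out
  have hC : ∀ a b : P, ⁅a, b⁆ ∈ Subgroup.center P := fun a b =>
    hcz (Subgroup.commutator_mem_commutator (Subgroup.mem_top _) (Subgroup.mem_top _))
  have hLz : L ≤ Subgroup.center P := hLc.trans hcz
  have hLp : ∀ v ∈ L, v ^ p = 1 := by
    intro v hv
    have h3 : (⟨v, hv⟩ : L) ^ Nat.card L = 1 := pow_card_eq_one'
    rw [hL] at h3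
    exact congrArg Subtype.val h3
  obtain ⟨g, hg, hgen⟩ := zl_gen p hP h hc L hL hLc
  obtain ⟨a, l, hl, hxa⟩ := hgen _ (zl_pow p hP hc L hL hLc x)
  obtain ⟨b, l', hl', hyb⟩ := hgen _ (zl_pow p hP hc L hL hLc y)
  -- (1)
  have e1 : ⁅x, g⁆ ^ a = 1 := by
    rw [← comm_pow_right x g (hC x g) a, ← comm_mul_central_right x (g ^ a) l (hLz hl), ← hxa,
      commutatorElement_eq_one_iff_mul_comm, ← pow_succ, ← pow_succ']
  -- (2)
  have e2 : ⁅g, y⁆ ^ a ≠ 1 := by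
    rw [← comm_pow_left g y (hC g y) a, ← comm_mul_central_left (g ^ a) y l (hLz hl), ← hxa,
      comm_pow_left x y (hC x y) p]
    exact hxy
  have e2' : ¬ p ∣ a := by
    rintro ⟨m, rfl⟩
    apply e2
    rw [pow_mul, hLp _ ((mem_ZL L g).1 hg y), one_pow]
  -- (3)
  have e3 : ⁅x, g⁆ ^ b ≠ 1 := by
    rw [← comm_pow_right x g (hC x g) b, ← comm_mul_central_right x (g ^ b) l' (hLz hl'), ← hyb,
      comm_pow_right x y (hC x y) p]
    exact hxy
  have e3' : ⁅x, g⁆ ≠ 1 := by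
    intro h0
    rw [h0, one_pow] at e3
    exact e3 rfl
  have e4 : ⁅x, g⁆ ^ p = 1 := by
    apply hLp
    rw [← commutatorElement_inv]
    exact inv_mem ((mem_ZL L g).1 hg x)
  have e5 : orderOf ⁅x, g⁆ = p := orderOf_eq_prime e4 e3'
  exact e2' (e5 ▸ orderOf_dvd_of_pow_eq_one e1)

end Cfsg.Agent.Lib.Helper84.GC
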