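import Cfsg.Agent.Lib.Helper84.GC.Defs

set_option autoImplicit false

namespace Cfsg.Agent.Lib.Helper84.GC

open Cfsg
open scoped commutatorElement

/-- B1S. -/
theorem b1s {P : Type*} [Group P] [Finite P] (p : ℕ) [Fact p.Prime]
    (hcz : commutator P ≤ Subgroup.center P) (w : P) (hw : w ∈ commutator P) (hwp : w ^ p ≠ 1) :
    ∃ x y : P, ⁅x, y⁆ ^ p ≠ 1 := by
  by_contra hcon
  push Not at hcon
  -- the subgroup of central elements killed by p
  let K : Subgroup P :=
    { carrier := {v | v ∈ Subgroup.center P ∧ v ^ p = 1}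
      one_mem' := ⟨one_mem _, one_pow _⟩
      mul_mem' := by
        rintro a b ⟨ha, ha'⟩ ⟨hb, hb'⟩
        refine ⟨mul_mem ha hb, ?_⟩
        have hcomm : Commute a b := (Subgroup.mem_center_iff.1 ha b).symm
        rw [hcomm.mul_pow, ha', hb', one_mul]
      inv_mem' := by
        rintro a ⟨ha, ha'⟩
        exact ⟨inv_mem ha, by rw [inv_pow, ha', inv_one]⟩ }
  have h1 : commutator P ≤ K := by
    rw [commutator_eq_closure, Subgroup.closure_le]
    rintro c ⟨x, y, rfl⟩
    exact ⟨hcz (Subgroup.commutator_mem_commutator (Subgroup.mem_top _) (Subgroup.mem_top _)),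
      hcon x y⟩
  exact hwp (h1 hw).2

end Cfsg.Agent.Lib.Helper84.GC
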