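import Cfsg.Agent.Lib.Helper84.GC.Defs
import Cfsg.Agent.Lib.Helper84.GC.CMP

set_option autoImplicit false

namespace Cfsg.Agent.Lib.Helper84.GC

open Cfsg
open scoped commutatorElement

/-- B2A. -/
theorem b2a {P : Type*} [Group P] [Finite P] (p : ℕ) [Fact p.Prime] (hP : IsPGroup p P)
    (h : HG P) (hc : Nat.card (commutator P) = p ^ 2)
    (hcz : ¬ commutator P ≤ Subgroup.center P) :
    Subgroup.center P ≤ commutator P ∧ Nat.card (Subgroup.center P) = p := by
  have hp : p.Prime := Fact.out
  have hle : Subgroup.center P ≤ commutator P := by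
    rcases cmp h (Subgroup.center P) with h1 | h1
    · exact absurd h1 hcz
    · exact h1
  refine ⟨hle, ?_⟩
  obtain ⟨k, hk2, hk⟩ := (Nat.dvd_prime_pow hp).1 (hc ▸ Subgroup.card_dvd_of_le hle)
  have hnt : Nontrivial P := by
    by_contra hn
    rw [not_nontrivial_iff_subsingleton] at hn
    apply hcz
    intro x _
    rw [Subsingleton.elim x 1]; exact one_mem _
  have hk0 : k ≠ 0 := by
    rintro rfl
    rw [pow_zero, Subgroup.card_eq_one] at hk
    have := hP.center_nontrivial
    rw [hk] at this
    exact not_nontrivial _ this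
  have hk2' : k ≠ 2 := by
    rintro rfl
    apply hcz
    rw [Subgroup.eq_of_le_of_card_ge hle (by rw [hc, hk])]
  have : k = 1 := by omega
  rw [hk, this, pow_one]

end Cfsg.Agent.Lib.Helper84.GC
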