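import Cfsg.Agent.Lib.Helper84.GC.Defs
import Cfsg.Agent.Lib.Helper84.GC.LA
import Cfsg.Agent.Lib.Helper84.GC.MEMZL
import Cfsg.Agent.Lib.Helper84.GC.COMMPOW

set_option autoImplicit false

namespace Cfsg.Agent.Lib.Helper84.GC

open Cfsg
open scoped commutatorElement

theorem ld_center_le {P : Type*} [Group P] (L : Subgroup P) [L.Normal] :
    Subgroup.center P ≤ ZL L := by
  intro x hx
  rw [mem_ZL]
  intro u
  have : ⁅x, u⁆ = 1 := by
    rw [commutatorElement_eq_one_iff_mul_comm]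
    exact (Subgroup.mem_center_iff.1 hx u).symm
  rw [this]; exact one_mem _

theorem ld_pow_mem {P : Type*} [Group P] [Finite P] (p : ℕ) (L : Subgroup P) [L.Normal]
    (hL : Nat.card L = p) (hLz : L ≤ Subgroup.center P) (g : P) (hg : g ∈ ZL L) :
    g ^ p ∈ Subgroup.center P := by
  rw [Subgroup.mem_center_iff]
  intro u
  have h0 := (mem_ZL L g).1 hg u
  have h1 := comm_pow_left g u (hLz h0) p
  have h2 : ⁅g, u⁆ ^ p = 1 := by
    have h3 : (⟨⁅g, u⁆, h0⟩ : L) ^ Nat.card L = 1 := pow_card_eq_one'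
    rw [hL] at h3
    exact congrArg Subtype.val h3
  rw [h2, commutatorElement_eq_one_iff_mul_comm] at h1
  exact h1.symm

/-- LD. -/
theorem zl_card {P : Type*} [Group P] [Finite P] (p : ℕ) [Fact p.Prime] (hP : IsPGroup p P)
    (h : HG P) (hc : Nat.card (commutator P) = p ^ 2) (L : Subgroup P) [L.Normal]
    (hL : Nat.card L = p) (hLc : L ≤ commutator P) :
    Nat.card (ZL L) = Nat.card (Subgroup.center P) ∨
      Nat.card (ZL L) = p * Nat.card (Subgroup.center P) := by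
  have hp : p.Prime := Fact.out
  have hLz : L ≤ Subgroup.center P := Cfsg.Agent.Lib.Helper67.le_center_of_normal_card_eq hP L hL
  obtain ⟨g, hg, hgen⟩ := zl_gen p hP h hc L hL hLc
  have hgp := ld_pow_mem p L hL hLz g hg
  -- surjection
  have hsurj : Function.Surjective (fun x : Fin p × Subgroup.center P =>
      (⟨g ^ (x.1 : ℕ) * x.2.1, mul_mem (pow_mem hg _) (ld_center_le L x.2.2)⟩ : ZL L)) := by
    intro z
    obtain ⟨a, l, hl, hz⟩ := hgen z.1 z.2
    refine ⟨(⟨a % p, Nat.mod_lt _ hp.pos⟩, ⟨(g ^ p) ^ (a / p) * l,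
      mul_mem (pow_mem hgp _) (hLz hl)⟩), ?_⟩
    apply Subtype.ext
    show g ^ (a % p) * ((g ^ p) ^ (a / p) * l) = z.1
    rw [hz, ← mul_assoc, ← pow_mul, ← pow_add, Nat.mod_add_div]
  have hle : Nat.card (ZL L) ≤ p * Nat.card (Subgroup.center P) := by
    have h1 := Nat.card_le_card_of_surjective _ hsurj
    rwa [Nat.card_prod, Nat.card_fin] at h1
  obtain ⟨m, hm⟩ := Subgroup.card_dvd_of_le (ld_center_le L)
  have hZpos : 0 < Nat.card (Subgroup.center P) := Nat.card_pos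
  obtain ⟨a, ha⟩ := (hP.to_subgroup (ZL L)).exists_card_eq
  have hmd : m ∣ p ^ a := by rw [← ha, hm]; exact Dvd.intro_left _ rfl
  obtain ⟨b, _, hb⟩ := (Nat.dvd_prime_pow hp).1 hmd
  have hmle : m ≤ p := by
    rw [hm, mul_comm] at hle
    exact Nat.le_of_mul_le_mul_right hle hZpos
  rcases b with _ | _ | b
  · left; rw [hm, hb]; simp
  · right; rw [hm, hb]; ring
  · exfalso
    rw [hb] at hmle
    have h2 : p ^ 2 ≤ p ^ (b + 1 + 1) := Nat.pow_le_pow_right hp.pos (by omega)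
    have h3 := hp.two_le
    nlinarith

end Cfsg.Agent.Lib.Helper84.GC
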