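import Cfsg.Agent.Lib.Helper84.GC.Defs
import Cfsg.Agent.Lib.Helper84.GC.B2A
import Cfsg.Agent.Lib.Helper84.GC.LD
import Cfsg.Agent.Lib.Helper84.GC.QC
import Cfsg.Agent.Lib.Helper84.GC.MEMZL

set_option autoImplicit false

namespace Cfsg.Agent.Lib.Helper84.GC

open Cfsg
open scoped commutatorElement

/-- B2B. -/
theorem b2b {P : Type*} [Group P] [Finite P] (p : ℕ) [Fact p.Prime] (hP : IsPGroup p P)
    (h : HG P) (hc : Nat.card (commutator P) = p ^ 2)
    (hcz : ¬ commutator P ≤ Subgroup.center P) :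
    Nat.card (ZL (Subgroup.center P)) = p ^ 2 := by
  have hp : p.Prime := Fact.out
  obtain ⟨hle, hZ⟩ := b2a p hP h hc hcz
  have hq := la_card p hc (Subgroup.center P) hZ hle
  have hqz : commutator (P ⧸ Subgroup.center P) ≤ Subgroup.center (P ⧸ Subgroup.center P) :=
    Cfsg.Agent.Lib.Helper67.le_center_of_normal_card_eq (hP.to_quotient _) _ hq
  have hsub : commutator P ≤ ZL (Subgroup.center P) := by
    intro x hx
    show (x : P ⧸ Subgroup.center P) ∈ Subgroup.center (P ⧸ Subgroup.center P)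
    apply hqz
    rw [← qc_map]
    exact Subgroup.mem_map_of_mem _ hx
  have hge : p ^ 2 ≤ Nat.card (ZL (Subgroup.center P)) := by
    rw [← hc]; exact Subgroup.card_le_of_le hsub
  rcases zl_card p hP h hc (Subgroup.center P) hZ hle with e | e
  · exfalso
    rw [e, hZ] at hge
    have := hp.two_le
    nlinarith
  · rw [e, hZ, sq]

end Cfsg.Agent.Lib.Helper84.GC
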