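import Cfsg.Agent.Lib.Helper84.GC.Defs

set_option autoImplicit false

namespace Cfsg.Agent.Lib.Helper84.GC

open Cfsg
open scoped commutatorElement

/-- if a nontrivial element of `Q'` (of order `p`) is in the kernel, the character is linear -/
theorem van_linear {Q : Type*} [Group Q] [Finite Q] (p : ℕ) [Fact p.Prime]
    (hc : Nat.card (commutator Q) = p) (χ : IrrCharacter Q) (z : Q) (hz : z ∈ commutator Q)
    (hz1 : z ≠ 1) (hzk : (χ : Q → ℂ) z = (χ : Q → ℂ) 1) : charDegree (χ : Q → ℂ) = 1 := by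
  have hp : p.Prime := Fact.out
  have hch := Cfsg.Agent.Lib.Helper82.isIrr_isChar χ.2
  have h1 : commutator Q ≤ Cfsg.Agent.Lib.Helper82.charKer (χ : Q → ℂ) hch := by
    have h2 : commutator Q ⊓ Cfsg.Agent.Lib.Helper82.charKer (χ : Q → ℂ) hch = commutator Q := by
      have h3 : Nat.card (commutator Q ⊓ Cfsg.Agent.Lib.Helper82.charKer (χ : Q → ℂ) hch : Subgroup Q)
          ∣ p := by
        rw [← hc]; exact Subgroup.card_dvd_of_le inf_le_left
      rcases (Nat.dvd_prime hp).1 h3 with h4 | h4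
      · exfalso
        rw [Subgroup.card_eq_one] at h4
        have : z ∈ (commutator Q ⊓ Cfsg.Agent.Lib.Helper82.charKer (χ : Q → ℂ) hch : Subgroup Q) :=
          ⟨hz, hzk⟩
        rw [h4, Subgroup.mem_bot] at this
        exact hz1 this
      · exact Subgroup.eq_of_le_of_card_ge inf_le_left (by rw [h4, hc])
    rw [← h2]; exact inf_le_right
  have h5 : (χ : Q → ℂ) 1 = 1 :=
    (Cfsg.Agent.Lib.Helper82.isIrr_linear_iff χ.2).2 (fun x hx => h1 hx)
  rw [Cfsg.Agent.Lib.Helper82.isChar_one_eq hch] at h5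
  exact_mod_cast h5

/-- VAN. -/
theorem vanish {Q : Type*} [Group Q] [Finite Q] (p : ℕ) [Fact p.Prime] (hQ : IsPGroup p Q)
    (hc : Nat.card (commutator Q) = p) (χ : IrrCharacter Q)
    (hχ : charDegree (χ : Q → ℂ) ≠ 1) (x : Q) (hx : x ∉ Subgroup.center Q) :
    (χ : Q → ℂ) x = 0 := by
  have hch := Cfsg.Agent.Lib.Helper82.isIrr_isChar χ.2
  have hcz : commutator Q ≤ Subgroup.center Q :=
    Cfsg.Agent.Lib.Helper67.le_center_of_normal_card_eq hQ (commutator Q) hc
  rw [Subgroup.mem_center_iff] at hx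
  push Not at hx
  obtain ⟨y, hy⟩ := hx
  have hz : ⁅y, x⁆ ∈ commutator Q :=
    Subgroup.commutator_mem_commutator (Subgroup.mem_top _) (Subgroup.mem_top _)
  have hz1 : ⁅y, x⁆ ≠ 1 := by
    rw [Ne, commutatorElement_eq_one_iff_mul_comm]
    exact hy
  have h1 : ⁅y, x⁆ * x = y * x * y⁻¹ := by
    rw [commutatorElement_def]; group
  have h2 := Cfsg.Agent.Lib.Helper82.isIrr_central_mul χ.2 (hcz hz) x
  rw [h1, Cfsg.Agent.Lib.Helper82.isChar_conj_eq hch] at h2
  by_contra h0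
  apply hχ
  apply van_linear p hc χ _ hz hz1
  have h3 : ((χ : Q → ℂ) ⁅y, x⁆ - (χ : Q → ℂ) 1) * (χ : Q → ℂ) x = 0 := by linear_combination -h2
  rcases mul_eq_zero.1 h3 with h4 | h4
  · linear_combination h4
  · exact absurd h4 h0

end Cfsg.Agent.Lib.Helper84.GC
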