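import Cfsg.Agent.Lib.Helper84.GC.Defs
import Cfsg.Agent.Lib.Helper84.GC.VAN

set_option autoImplicit false

namespace Cfsg.Agent.Lib.Helper84.GC

open Cfsg
open scoped commutatorElement ComplexConjugate

/-- DEG. -/
theorem deg_sq {Q : Type*} [Group Q] [Finite Q] (p : ℕ) [Fact p.Prime] (hQ : IsPGroup p Q)
    (hc : Nat.card (commutator Q) = p) (χ : IrrCharacter Q)
    (hχ : charDegree (χ : Q → ℂ) ≠ 1) :
    charDegree (χ : Q → ℂ) ^ 2 * Nat.card (Subgroup.center Q) = Nat.card Q := by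
  classical
  have := Fintype.ofFinite Q
  have hirr := χ.2
  have h1 := Cfsg.Agent.Lib.Helper20.classInner_irr_self hirr
  unfold classInner at h1
  have h0 : (Nat.card Q : ℂ) ≠ 0 := by exact_mod_cast Nat.card_pos.ne'
  have h2 : ∑ g : Q, (χ : Q → ℂ) g * conj ((χ : Q → ℂ) g) = (Nat.card Q : ℂ) := by
    field_simp at h1
    exact h1
  have h3 : ∀ g : Q, (χ : Q → ℂ) g * conj ((χ : Q → ℂ) g) =
      ((Complex.normSq ((χ : Q → ℂ) g) : ℝ) : ℂ) := fun g => Complex.mul_conj _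
  simp only [h3] at h2
  have h4 : ∑ g : Q, Complex.normSq ((χ : Q → ℂ) g) = (Nat.card Q : ℝ) := by exact_mod_cast h2
  have h5 : ∑ g ∈ Finset.univ.filter (fun g : Q => g ∈ Subgroup.center Q),
      Complex.normSq ((χ : Q → ℂ) g) = ∑ g : Q, Complex.normSq ((χ : Q → ℂ) g) := by
    apply Finset.sum_subset (Finset.filter_subset _ _)
    intro g _ hg
    have hg' : g ∉ Subgroup.center Q := fun h => hg (Finset.mem_filter.2 ⟨Finset.mem_univ _, h⟩)
    rw [vanish p hQ hc χ hχ g hg']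
    simp
  have h6 : ∀ g ∈ Finset.univ.filter (fun g : Q => g ∈ Subgroup.center Q),
      Complex.normSq ((χ : Q → ℂ) g) = (charDegree (χ : Q → ℂ) : ℝ) ^ 2 := by
    intro g hg
    have hg' : g ∈ Subgroup.center Q := (Finset.mem_filter.1 hg).2
    have h7 := Cfsg.Agent.Lib.Helper82.isIrr_central_mul_conj hirr hg'
    rw [h3, Cfsg.Agent.Lib.Helper82.isChar_one_eq (Cfsg.Agent.Lib.Helper82.isIrr_isChar hirr)] at h7
    exact_mod_cast h7
  rw [Finset.sum_congr rfl h6, Finset.sum_const, h4, nsmul_eq_mul] at h5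
  have h8 : (Finset.univ.filter (fun g : Q => g ∈ Subgroup.center Q)).card =
      Nat.card (Subgroup.center Q) := by
    rw [Nat.card_eq_fintype_card, Fintype.card_subtype]
  rw [h8] at h5
  have h9 : ((charDegree (χ : Q → ℂ) ^ 2 * Nat.card (Subgroup.center Q) : ℕ) : ℝ) =
      (Nat.card Q : ℝ) := by
    push_cast
    linarith
  exact_mod_cast h9

end Cfsg.Agent.Lib.Helper84.GC
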