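import Cfsg.Agent.Lib.Helper84.GC.Defs
import Cfsg.Agent.Lib.Helper84.GC.NONLIN
import Cfsg.Agent.Lib.Helper84.GC.DEG
import Cfsg.Agent.Lib.Helper84.GC.MEMZL
import Cfsg.Agent.Lib.Helper84.GC.QC
import Cfsg.Agent.Lib.Helper84.GC.LA

set_option autoImplicit false

namespace Cfsg.Agent.Lib.Helper84.GC

open Cfsg
open scoped commutatorElement

/-- LB. -/
theorem zl_char {P : Type*} [Group P] [Finite P] (p : ℕ) [Fact p.Prime] (hP : IsPGroup p P)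
    (hc : Nat.card (commutator P) = p ^ 2) (L : Subgroup P) [L.Normal]
    (hL : Nat.card L = p) (hLc : L ≤ commutator P) :
    ∃ χ : IrrCharacter P, charDegree (χ : P → ℂ) ≠ 1 ∧
      (∀ x ∈ L, (χ : P → ℂ) x = (χ : P → ℂ) 1) ∧
      charDegree (χ : P → ℂ) ^ 2 * Nat.card (ZL L) = Nat.card P := by
  have hp : p.Prime := Fact.out
  have hq := la_card p hc L hL hLc
  have hne : commutator (P ⧸ L) ≠ ⊥ := by
    intro h0
    rw [h0, Subgroup.card_bot] at hq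
    exact hp.one_lt.ne hq
  obtain ⟨ψ, hψ⟩ := exists_nonlinear hne
  have hd := deg_sq p (hP.to_quotient L) hq ψ hψ
  refine ⟨⟨fun g => (ψ : P ⧸ L → ℂ) (g : P ⧸ L), Cfsg.Agent.Lib.Helper82.isIrr_inflate ψ.2⟩,
    hψ, ?_, ?_⟩
  · intro x hx
    show (ψ : P ⧸ L → ℂ) (x : P ⧸ L) = (ψ : P ⧸ L → ℂ) ((1 : P) : P ⧸ L)
    rw [(QuotientGroup.eq_one_iff x).2 hx]
    rfl
  · show charDegree (ψ : P ⧸ L → ℂ) ^ 2 * Nat.card (ZL L) = Nat.card P
    rw [card_ZL, ← mul_assoc, hd, ← Subgroup.index_eq_card, mul_comm, Subgroup.card_mul_index]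

end Cfsg.Agent.Lib.Helper84.GC
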