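import Cfsg.Agent.Lib.Helper84.GC.Defs
import Cfsg.Agent.Lib.Helper84.GC.B2A
import Cfsg.Agent.Lib.Helper84.GC.B2B
import Cfsg.Agent.Lib.Helper84.GC.LB
import Cfsg.Agent.Lib.Helper84.GC.SAMEKER

set_option autoImplicit false

namespace Cfsg.Agent.Lib.Helper84.GC

open Cfsg
open scoped commutatorElement

theorem b2c_deg {P : Type*} [Group P] [Finite P] (p : ℕ) [Fact p.Prime] (hP : IsPGroup p P)
    (χ : IrrCharacter P) : ∃ e : ℕ, charDegree (χ : P → ℂ) = p ^ e := by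
  have hp : p.Prime := Fact.out
  obtain ⟨a, ha⟩ := hP.exists_card_eq
  obtain ⟨e, _, he⟩ := (Nat.dvd_prime_pow hp).1
    (ha ▸ Cfsg.Agent.Lib.Helper82.isIrr_charDegree_dvd_card χ.2)
  exact ⟨e, he⟩

/-- B2C. -/
theorem b2c {P : Type*} [Group P] [Finite P] (p : ℕ) [Fact p.Prime] (hP : IsPGroup p P)
    (h : HG P) (hc : Nat.card (commutator P) = p ^ 2)
    (hcz : ¬ commutator P ≤ Subgroup.center P) :
    ∃ n : ℕ, Nat.card P = p ^ (2 * n + 2) ∧ ∀ χ : IrrCharacter P,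
      (¬ ∀ x ∈ Subgroup.center P, (χ : P → ℂ) x = (χ : P → ℂ) 1) →
      ∃ e : ℕ, 1 ≤ e ∧ e < n ∧ charDegree (χ : P → ℂ) = p ^ e := by
  have hp : p.Prime := Fact.out
  obtain ⟨hle, hZ⟩ := b2a p hP h hc hcz
  obtain ⟨χ₀, hχ₀, hk₀, hd₀⟩ := zl_char p hP hc (Subgroup.center P) hZ hle
  rw [b2b p hP h hc hcz] at hd₀
  obtain ⟨n, hn⟩ := b2c_deg p hP χ₀
  have hcard : Nat.card P = p ^ (2 * n + 2) := by
    rw [← hd₀, hn, ← pow_mul, ← pow_add]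
    congr 1
    ring
  refine ⟨n, hcard, ?_⟩
  intro χ hχ
  obtain ⟨e, he⟩ := b2c_deg p hP χ
  have h1 := Cfsg.Agent.Lib.Helper82.isIrr_sq_degree_mul_card_center_le χ.2
  rw [hZ, he, hcard, ← pow_mul, ← pow_succ] at h1
  have h2 : e * 2 + 1 ≤ 2 * n + 2 := (Nat.pow_le_pow_iff_right hp.one_lt).1 h1
  have hen : e ≠ n := by
    rintro rfl
    apply hχ
    intro x hx
    exact same_ker h χ₀ χ hχ₀ (by rw [hn, he]) x (hk₀ x hx)
  have he0 : e ≠ 0 := by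
    rintro rfl
    apply hχ
    intro x hx
    have h3 : (χ : P → ℂ) 1 = 1 := by
      rw [Cfsg.Agent.Lib.Helper82.isChar_one_eq (Cfsg.Agent.Lib.Helper82.isIrr_isChar χ.2), he]
      simp
    exact (Cfsg.Agent.Lib.Helper82.isIrr_linear_iff χ.2).1 h3 x (hle hx)
  exact ⟨e, by omega, by omega, he⟩

end Cfsg.Agent.Lib.Helper84.GC
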