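import Cfsg.Agent.Lib.Helper84.GC.Defs

set_option autoImplicit false

namespace Cfsg.Agent.Lib.Helper84.GC

open Cfsg
open scoped commutatorElement

theorem b2d_pow_mod {P : Type*} [Group P] (m : ℕ) (hexp : ∀ x : P, x ^ m = 1) (g : P) (k : ℕ) :
    g ^ k = g ^ (k % m) := by
  conv_lhs => rw [← Nat.mod_add_div k m, pow_add, pow_mul, hexp, one_pow, mul_one]

/-- B2D. -/
theorem b2d {P : Type*} [Group P] [Finite P] (p : ℕ) [Fact p.Prime] (hP : IsPGroup p P)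
    (hnt : Nontrivial P) (h : HG P) (hexp : ∀ x : P, x ^ (p ^ 3) = 1) (d : ℕ) (hd : d ≠ 1) :
    Nat.card {χ : IrrCharacter P // charDegree (χ : P → ℂ) = d} ≤ p ^ 2 * (p - 1) := by
  classical
  have hp : p.Prime := Fact.out
  by_cases hemp : IsEmpty {χ : IrrCharacter P // charDegree (χ : P → ℂ) = d}
  · rw [Nat.card_of_isEmpty]; exact Nat.zero_le _
  rw [not_isEmpty_iff] at hemp
  obtain ⟨χ₀, hχ₀⟩ := hemp
  have hpd : p ∣ Nat.card P := by
    obtain ⟨a, ha0, ha⟩ := hP.nontrivial_iff_card.1 hnt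
    rw [ha]; exact dvd_pow_self p ha0.ne'
  have hex : ∀ χ : {χ : IrrCharacter P // charDegree (χ : P → ℂ) = d}, ∃ k : ℕ,
      Nat.Coprime k (Nat.card P) ∧ ∀ g : P, (χ.1 : P → ℂ) g = (χ₀ : P → ℂ) (g ^ k) := fun χ =>
    h χ₀ χ.1 (by rw [hχ₀]; exact hd) (by rw [hχ₀, χ.2])
  choose k hk1 hk2 using hex
  have hmem : ∀ χ, k χ % p ^ 3 ∈ (Finset.range (p ^ 3)).filter (fun a => (p ^ 3).Coprime a) := by
    intro χ
    rw [Finset.mem_filter, Finset.mem_range]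
    refine ⟨Nat.mod_lt _ (pow_pos hp.pos 3), ?_⟩
    have h1 : Nat.Coprime (k χ) p := Nat.Coprime.coprime_dvd_right hpd (hk1 χ)
    have h2 : Nat.Coprime (p ^ 3) (k χ) := (Nat.Coprime.pow_right 3 h1).symm
    have h3 : Nat.gcd (k χ % p ^ 3) (p ^ 3) = Nat.gcd (p ^ 3) (k χ) := (Nat.gcd_rec (p ^ 3) (k χ)).symm
    show Nat.gcd (p ^ 3) (k χ % p ^ 3) = 1
    rw [Nat.gcd_comm, h3]
    exact h2
  have hinj : Function.Injective (fun χ : {χ : IrrCharacter P // charDegree (χ : P → ℂ) = d} =>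
      (⟨k χ % p ^ 3, hmem χ⟩ :
        {a // a ∈ (Finset.range (p ^ 3)).filter (fun a => (p ^ 3).Coprime a)})) := by
    intro χ χ' hχ
    have h1 : k χ % p ^ 3 = k χ' % p ^ 3 := congrArg Subtype.val hχ
    apply Subtype.ext
    apply Subtype.ext
    funext g
    rw [hk2 χ g, hk2 χ' g, b2d_pow_mod (p ^ 3) hexp g (k χ), b2d_pow_mod (p ^ 3) hexp g (k χ'), h1]
  have h4 := Nat.card_le_card_of_injective _ hinj
  have h5 : Nat.card {a // a ∈ (Finset.range (p ^ 3)).filter (fun a => (p ^ 3).Coprime a)} =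
      p ^ 2 * (p - 1) := by
    rw [Nat.card_eq_fintype_card, Fintype.card_coe, ← Nat.totient_prime_pow hp (n := 3) (by norm_num)]
    rfl
  rwa [h5] at h4

end Cfsg.Agent.Lib.Helper84.GC
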