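import Cfsg.Agent.Lib.Helper84.GC.Defs
import Cfsg.Agent.Lib.Helper84.GC.B2A
import Cfsg.Agent.Lib.Helper84.GC.B2B
import Cfsg.Agent.Lib.Helper84.GC.LC

set_option autoImplicit false

namespace Cfsg.Agent.Lib.Helper84.GC

open Cfsg
open scoped commutatorElement

/-- B2X. -/
theorem b2x {P : Type*} [Group P] [Finite P] (p : ℕ) [Fact p.Prime] (hP : IsPGroup p P)
    (h : HG P) (hc : Nat.card (commutator P) = p ^ 2)
    (hcz : ¬ commutator P ≤ Subgroup.center P) (x : P) : x ^ (p ^ 3) = 1 := by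
  obtain ⟨hle, hZ⟩ := b2a p hP h hc hcz
  have h1 := zl_pow p hP hc (Subgroup.center P) hZ hle x
  have h2 : (⟨x ^ p, h1⟩ : ZL (Subgroup.center P)) ^ Nat.card (ZL (Subgroup.center P)) = 1 :=
    pow_card_eq_one'
  rw [b2b p hP h hc hcz] at h2
  have h3 := congrArg Subtype.val h2
  simp only [Subgroup.coe_pow, Subgroup.coe_one] at h3
  rw [← pow_mul] at h3
  rw [← h3]
  congr 1
  ring

end Cfsg.Agent.Lib.Helper84.GC
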