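import Cfsg.Agent.Lib.Helper84.GC.Defs
import Cfsg.Agent.Lib.Helper84.GC.VAN
import Cfsg.Agent.Lib.Helper84.GC.SAMEKER

set_option autoImplicit false

namespace Cfsg.Agent.Lib.Helper84.GC

open Cfsg
open scoped commutatorElement

/-- BACK0. -/
theorem back_faithful {P : Type*} [Group P] [Finite P] (p : ℕ) [Fact p.Prime] (hP : IsPGroup p P)
    (hcyc : IsCyclic (Subgroup.center P)) (hc : Nat.card (commutator P) = p) (χ : IrrCharacter P)
    (hχ : charDegree (χ : P → ℂ) ≠ 1) (c : P) (hcz : c ∈ Subgroup.center P)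
    (hcc : (χ : P → ℂ) c = (χ : P → ℂ) 1) : c = 1 := by
  classical
  have hp : p.Prime := Fact.out
  by_contra hc1
  have := Fintype.ofFinite (Subgroup.center P)
  have hPz : commutator P ≤ Subgroup.center P :=
    Cfsg.Agent.Lib.Helper67.le_center_of_normal_card_eq hP (commutator P) hc
  -- an element of order p in ⟨c⟩
  obtain ⟨k, hk⟩ := hP c
  obtain ⟨m, hm⟩ : ∃ m, orderOf c = p ^ m := by
    obtain ⟨m, _, hm⟩ := (Nat.dvd_prime_pow hp).1 (orderOf_dvd_of_pow_eq_one hk)
    exact ⟨m, hm⟩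
  have hm0 : m ≠ 0 := by
    rintro rfl
    rw [pow_zero, orderOf_eq_one_iff] at hm
    exact hc1 hm
  obtain ⟨m', rfl⟩ := Nat.exists_eq_succ_of_ne_zero hm0
  have ho : orderOf (c ^ (p ^ m')) = p := by
    rw [orderOf_pow_of_dvd (pow_ne_zero _ hp.ne_zero) (by rw [hm]; exact pow_dvd_pow p (Nat.le_succ m')),
      hm, Nat.succ_eq_add_one, pow_succ, Nat.mul_div_cancel_left _ (pow_pos hp.pos _)]
  set c' : Subgroup.center P := ⟨c ^ (p ^ m'), Subgroup.pow_mem _ hcz _⟩ with hc'
  have ho' : orderOf c' = p := by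
    rw [← Subgroup.orderOf_coe]; exact ho
  have hS := IsCyclic.card_pow_eq_one_le (α := Subgroup.center P) hp.pos
  have hA : (Finset.image (fun i => c' ^ i) (Finset.range p)).card = p := by
    rw [Finset.card_image_of_injOn, Finset.card_range]
    intro i hi j hj hij
    have hi' : i < orderOf c' := by rw [ho']; exact Finset.mem_range.1 hi
    have hj' : j < orderOf c' := by rw [ho']; exact Finset.mem_range.1 hj
    exact pow_injOn_Iio_orderOf hi' hj' hij
  have hsub : Finset.image (fun i => c' ^ i) (Finset.range p) ⊆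
      Finset.univ.filter (fun a : Subgroup.center P => a ^ p = 1) := by
    intro a ha
    obtain ⟨i, _, rfl⟩ := Finset.mem_image.1 ha
    rw [Finset.mem_filter]
    refine ⟨Finset.mem_univ _, ?_⟩
    rw [← pow_mul, mul_comm, pow_mul, ← ho', pow_orderOf_eq_one, one_pow]
  have heq := Finset.eq_of_subset_of_card_le hsub (by rw [hA]; exact hS)
  -- a nontrivial element of P'
  obtain ⟨t, ht, ht1⟩ : ∃ t : P, t ∈ commutator P ∧ t ≠ 1 := by
    by_contra hcon
    push Not at hcon
    rw [(Subgroup.eq_bot_iff_forall _).2 hcon, Subgroup.card_bot] at hc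
    exact hp.one_lt.ne hc
  have htp : t ^ p = 1 := by
    have h3 : (⟨t, ht⟩ : commutator P) ^ Nat.card (commutator P) = 1 := pow_card_eq_one'
    rw [hc] at h3
    exact congrArg Subtype.val h3
  have htS : (⟨t, hPz ht⟩ : Subgroup.center P) ∈
      Finset.univ.filter (fun a : Subgroup.center P => a ^ p = 1) := by
    rw [Finset.mem_filter]
    exact ⟨Finset.mem_univ _, Subtype.ext htp⟩
  rw [← heq] at htS
  obtain ⟨i, _, hi⟩ := Finset.mem_image.1 htS
  have hi' : (c ^ (p ^ m')) ^ i = t := congrArg Subtype.val hi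
  apply hχ
  apply van_linear p hc χ t ht ht1
  rw [← hi', ← pow_mul]
  exact sameker_pow χ c hcc _

end Cfsg.Agent.Lib.Helper84.GC
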