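import Cfsg.Agent.Lib.Helper84.GC.Defs
import Cfsg.Agent.Lib.Helper84.GC.BACK0

set_option autoImplicit false

namespace Cfsg.Agent.Lib.Helper84.GC

open Cfsg
open scoped commutatorElement

/-- BACK1. -/
theorem back_prim {P : Type*} [Group P] [Finite P] (p : ℕ) [Fact p.Prime] (hP : IsPGroup p P)
    (hcyc : IsCyclic (Subgroup.center P)) (hc : Nat.card (commutator P) = p) (χ : IrrCharacter P)
    (hχ : charDegree (χ : P → ℂ) ≠ 1) (z : P) (hz : z ∈ Subgroup.center P)
    (hgen : ∀ c ∈ Subgroup.center P, c ∈ Subgroup.zpowers z) :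
    IsPrimitiveRoot ((χ : P → ℂ) z / (χ : P → ℂ) 1) (Nat.card (Subgroup.center P)) ∧
      ∀ j : ℕ, (χ : P → ℂ) (z ^ j) = (χ : P → ℂ) 1 * ((χ : P → ℂ) z / (χ : P → ℂ) 1) ^ j := by
  have h0 := Cfsg.Agent.Lib.Helper82.isIrr_one_ne_zero χ.2
  have hpow : ∀ j : ℕ, (χ : P → ℂ) (z ^ j) =
      (χ : P → ℂ) 1 * ((χ : P → ℂ) z / (χ : P → ℂ) 1) ^ j := by
    intro j
    induction j with
    | zero => simp
    | succ j ih =>
      have h1 := Cfsg.Agent.Lib.Helper82.isIrr_central_mul χ.2 hz (z ^ j)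
      rw [← pow_succ', ih] at h1
      have h2 : (χ : P → ℂ) (z ^ (j + 1)) =
          (χ : P → ℂ) z * ((χ : P → ℂ) z / (χ : P → ℂ) 1) ^ j := by
        apply mul_right_cancel₀ h0
        rw [h1]; ring
      rw [h2, pow_succ ((χ : P → ℂ) z / (χ : P → ℂ) 1)]
      field_simp
  refine ⟨?_, hpow⟩
  have hN : Nat.card (Subgroup.center P) = orderOf z := by
    have hZ : Subgroup.center P = Subgroup.zpowers z :=
      le_antisymm hgen (by rw [Subgroup.zpowers_le]; exact hz)
    rw [← Nat.card_zpowers, hZ]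
  rw [hN]
  constructor
  · have h1 := hpow (orderOf z)
    rw [pow_orderOf_eq_one] at h1
    have h2 : (χ : P → ℂ) 1 * (((χ : P → ℂ) z / (χ : P → ℂ) 1) ^ orderOf z - 1) = 0 := by
      linear_combination -h1
    rcases mul_eq_zero.1 h2 with h3 | h3
    · exact absurd h3 h0
    · linear_combination h3
  · intro l hl
    have h1 := hpow l
    rw [hl, mul_one] at h1
    exact orderOf_dvd_of_pow_eq_one
      (back_faithful p hP hcyc hc χ hχ (z ^ l) (Subgroup.pow_mem _ hz l) h1)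

end Cfsg.Agent.Lib.Helper84.GC
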