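import Cfsg.Agent.Lib.Helper84.GC.Defs
import Cfsg.Agent.Lib.Helper84.GC.BACK1
import Cfsg.Agent.Lib.Helper84.GC.VAN

set_option autoImplicit false

namespace Cfsg.Agent.Lib.Helper84.GC

open Cfsg
open scoped commutatorElement

/-- BACK (the converse direction). -/
theorem back {P : Type*} [Group P] [Finite P] (p : ℕ) [Fact p.Prime] (hP : IsPGroup p P)
    (hcyc : IsCyclic (Subgroup.center P)) (hc : Nat.card (commutator P) = p) : HG P := by
  have hp : p.Prime := Fact.out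
  intro χ ψ hχ hd
  have hψ : charDegree (ψ : P → ℂ) ≠ 1 := hd ▸ hχ
  obtain ⟨⟨z, hz⟩, hg⟩ := IsCyclic.exists_generator (α := Subgroup.center P)
  have hgen : ∀ c ∈ Subgroup.center P, c ∈ Subgroup.zpowers z := by
    intro c hcc
    obtain ⟨k, hk⟩ := Subgroup.mem_zpowers_iff.1 (hg ⟨c, hcc⟩)
    rw [Subgroup.mem_zpowers_iff]
    exact ⟨k, by simpa using congrArg Subtype.val hk⟩
  obtain ⟨ha, hpa⟩ := back_prim p hP hcyc hc χ hχ z hz hgen
  obtain ⟨hb, hpb⟩ := back_prim p hP hcyc hc ψ hψ z hz hgen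
  have hNpos : 0 < Nat.card (Subgroup.center P) := Nat.card_pos
  have : NeZero (Nat.card (Subgroup.center P)) := ⟨hNpos.ne'⟩
  obtain ⟨i, _, hi⟩ := ha.eq_pow_of_pow_eq_one hb.pow_eq_one
  have hcop : i.Coprime (Nat.card (Subgroup.center P)) := by
    rw [← ha.pow_iff_coprime hNpos i, hi]
    exact hb
  have hPz : commutator P ≤ Subgroup.center P :=
    Cfsg.Agent.Lib.Helper67.le_center_of_normal_card_eq hP (commutator P) hc
  have hpN : p ∣ Nat.card (Subgroup.center P) := hc ▸ Subgroup.card_dvd_of_le hPz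
  have hip : i.Coprime p := Nat.Coprime.coprime_dvd_right hpN hcop
  obtain ⟨t, ht⟩ := hP.exists_card_eq
  have hiP : i.Coprime (Nat.card P) := by rw [ht]; exact Nat.Coprime.pow_right t hip
  have h11 : (ψ : P → ℂ) 1 = (χ : P → ℂ) 1 := by
    rw [Cfsg.Agent.Lib.Helper82.isChar_one_eq (Cfsg.Agent.Lib.Helper82.isIrr_isChar ψ.2),
      Cfsg.Agent.Lib.Helper82.isChar_one_eq (Cfsg.Agent.Lib.Helper82.isIrr_isChar χ.2), hd]
  refine ⟨i, hiP, ?_⟩
  intro g
  by_cases hgz : g ∈ Subgroup.center P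
  · obtain ⟨j, rfl⟩ := mem_powers_iff_mem_zpowers.2 (hgen g hgz)
    show (ψ : P → ℂ) (z ^ j) = (χ : P → ℂ) ((z ^ j) ^ i)
    rw [← pow_mul, hpb j, hpa (j * i), ← hi, h11, ← pow_mul, mul_comm i j]
  · rw [vanish p hP hc ψ hψ g hgz]
    symm
    apply vanish p hP hc χ hχ
    intro hgi
    apply hgz
    obtain ⟨m, hm⟩ := exists_pow_eq_self_of_coprime
      (Nat.Coprime.coprime_dvd_right (orderOf_dvd_natCard g) hiP)
    rw [← hm]
    exact Subgroup.pow_mem _ hgi m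

end Cfsg.Agent.Lib.Helper84.GC
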