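import Cfsg.Agent.Lib.Helper84.GC.Defs
import Cfsg.Agent.Lib.Helper84.GC.LB
import Cfsg.Agent.Lib.Helper84.GC.LD
import Cfsg.Agent.Lib.Helper84.GC.SAMEKER

set_option autoImplicit false

namespace Cfsg.Agent.Lib.Helper84.GC

open Cfsg
open scoped commutatorElement

theorem casea_parity (p : ℕ) [hp : Fact p.Prime] (a b : ℕ) (ha : a ≠ 0) (hb : b ≠ 0)
    (h : a ^ 2 = p * b ^ 2) : False := by
  have h1 := congrArg (padicValNat p) h
  rw [padicValNat.pow, padicValNat.mul hp.out.ne_zero (pow_ne_zero 2 hb), padicValNat.pow,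
    padicValNat_self] at h1
  omega

/-- CASEA. -/
theorem caseA {P : Type*} [Group P] [Finite P] (p : ℕ) [Fact p.Prime] (hP : IsPGroup p P)
    (h : HG P) (hc : Nat.card (commutator P) = p ^ 2) (L₁ L₂ : Subgroup P) [L₁.Normal] [L₂.Normal]
    (h1 : Nat.card L₁ = p) (h2 : Nat.card L₂ = p) (h1c : L₁ ≤ commutator P)
    (h2c : L₂ ≤ commutator P) (hne : L₁ ≠ L₂) : False := by
  have hp : p.Prime := Fact.out
  obtain ⟨χ₁, hχ₁, hk₁, hd₁⟩ := zl_char p hP hc L₁ h1 h1c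
  obtain ⟨χ₂, hχ₂, hk₂, hd₂⟩ := zl_char p hP hc L₂ h2 h2c
  have hZpos : 0 < Nat.card (Subgroup.center P) := Nat.card_pos
  have hpos₁ : charDegree (χ₁ : P → ℂ) ≠ 0 :=
    (Cfsg.Agent.Lib.Helper82.isIrr_charDegree_pos χ₁.2).ne'
  have hpos₂ : charDegree (χ₂ : P → ℂ) ≠ 0 :=
    (Cfsg.Agent.Lib.Helper82.isIrr_charDegree_pos χ₂.2).ne'
  have hdeg : charDegree (χ₁ : P → ℂ) = charDegree (χ₂ : P → ℂ) := by
    rw [← hd₂] at hd₁
    rcases zl_card p hP h hc L₁ h1 h1c with e1 | e1 <;>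
      rcases zl_card p hP h hc L₂ h2 h2c with e2 | e2
    · rw [e1, e2] at hd₁
      have := Nat.eq_of_mul_eq_mul_right hZpos hd₁
      exact Nat.pow_left_injective (n := 2) (by norm_num) this
    · exfalso
      rw [e1, e2, ← mul_assoc] at hd₁
      have := Nat.eq_of_mul_eq_mul_right hZpos hd₁
      exact casea_parity p _ _ hpos₁ hpos₂ (by rw [this]; ring)
    · exfalso
      rw [e1, e2, ← mul_assoc] at hd₁
      have := Nat.eq_of_mul_eq_mul_right hZpos hd₁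
      exact casea_parity p _ _ hpos₂ hpos₁ (by rw [← this]; ring)
    · rw [e1, e2] at hd₁
      have := Nat.eq_of_mul_eq_mul_right (Nat.mul_pos hp.pos hZpos) hd₁
      exact Nat.pow_left_injective (n := 2) (by norm_num) this
  have hch := Cfsg.Agent.Lib.Helper82.isIrr_isChar χ₂.2
  have hL1 : L₁ ≤ Cfsg.Agent.Lib.Helper82.charKer (χ₂ : P → ℂ) hch := fun x hx =>
    same_ker h χ₁ χ₂ hχ₁ hdeg x (hk₁ x hx)
  have hL2 : L₂ ≤ Cfsg.Agent.Lib.Helper82.charKer (χ₂ : P → ℂ) hch := fun x hx => hk₂ x hx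
  have hsup : L₁ ⊔ L₂ = commutator P := by
    have hle : L₁ ⊔ L₂ ≤ commutator P := sup_le h1c h2c
    obtain ⟨k, hk2, hk⟩ := (Nat.dvd_prime_pow hp).1 (hc ▸ Subgroup.card_dvd_of_le hle)
    have hk' : k = 2 := by
      by_contra hk3
      have hk1 : k ≤ 1 := by omega
      have hcle : Nat.card (L₁ ⊔ L₂ : Subgroup P) ≤ p := by
        rw [hk]
        calc p ^ k ≤ p ^ 1 := Nat.pow_le_pow_right hp.pos hk1
          _ = p := pow_one p
      have e1 : L₁ = L₁ ⊔ L₂ := Subgroup.eq_of_le_of_card_ge le_sup_left (by rw [h1]; exact hcle)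
      have e2 : L₂ = L₁ ⊔ L₂ := Subgroup.eq_of_le_of_card_ge le_sup_right (by rw [h2]; exact hcle)
      exact hne (e1.trans e2.symm)
    exact Subgroup.eq_of_le_of_card_ge hle (by rw [hc, hk, hk'])
  have h5 : (χ₂ : P → ℂ) 1 = 1 :=
    (Cfsg.Agent.Lib.Helper82.isIrr_linear_iff χ₂.2).2 (fun x hx => by
      rw [← hsup] at hx
      exact (sup_le hL1 hL2) hx)
  rw [Cfsg.Agent.Lib.Helper82.isChar_one_eq hch] at h5
  exact hχ₂ (by exact_mod_cast h5)

end Cfsg.Agent.Lib.Helper84.GC
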