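import Cfsg.Agent.Lib.Helper84.GC.Defs

set_option autoImplicit false

namespace Cfsg.Agent.Lib.Helper84.GC

open Cfsg
open scoped commutatorElement

theorem count_geom (p : ℕ) (hp : 2 ≤ p) (n : ℕ) :
    p * ∑ e ∈ Finset.range n, p ^ (2 * e) < p ^ (2 * n) := by
  induction n with
  | zero => simp
  | succ n ih =>
    rw [Finset.sum_range_succ, mul_add]
    have h1 : p ^ (2 * (n + 1)) = p ^ (2 * n) * p ^ 2 := by ring
    have h3 : 0 < p ^ (2 * n) := by positivity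
    have h4 : 1 + p ≤ p ^ 2 := by nlinarith
    have h5 := Nat.mul_le_mul_left (p ^ (2 * n)) h4
    rw [h1]
    nlinarith

/-- COUNT (pure combinatorics). -/
theorem count {ι : Type*} (F : Finset ι) (deg : ι → ℕ) (p n : ℕ) (hp : 2 ≤ p)
    (h1 : ∀ i ∈ F, ∃ e : ℕ, 1 ≤ e ∧ e < n ∧ deg i = p ^ e)
    (h2 : ∀ d : ℕ, (F.filter (fun i => deg i = d)).card ≤ p ^ 2 * (p - 1)) :
    ∑ i ∈ F, deg i ^ 2 < p ^ (2 * n + 1) * (p - 1) := by
  classical
  have hlog : ∀ i ∈ F, deg i = p ^ (Nat.log p (deg i)) ∧ Nat.log p (deg i) < n := by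
    intro i hi
    obtain ⟨e, _, he, hd⟩ := h1 i hi
    rw [hd, Nat.log_pow (by omega)]
    exact ⟨rfl, he⟩
  have hmaps : ∀ i ∈ F, Nat.log p (deg i) ∈ Finset.range n := fun i hi =>
    Finset.mem_range.2 (hlog i hi).2
  have hle : ∑ i ∈ F, deg i ^ 2 ≤ ∑ e ∈ Finset.range n, (p ^ 2 * (p - 1)) * p ^ (2 * e) := by
    rw [← Finset.sum_fiberwise_of_maps_to hmaps]
    apply Finset.sum_le_sum
    intro e _
    have h3 : ∀ i ∈ F.filter (fun i => Nat.log p (deg i) = e), deg i ^ 2 ≤ p ^ (2 * e) := by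
      intro i hi
      rw [Finset.mem_filter] at hi
      rw [(hlog i hi.1).1, hi.2, ← pow_mul, mul_comm]
    have h4 := Finset.sum_le_card_nsmul _ _ _ h3
    rw [smul_eq_mul] at h4
    refine h4.trans (Nat.mul_le_mul_right _ ?_)
    refine le_trans (Finset.card_le_card ?_) (h2 (p ^ e))
    intro i hi
    rw [Finset.mem_filter] at hi ⊢
    refine ⟨hi.1, ?_⟩
    rw [(hlog i hi.1).1, hi.2]
  refine lt_of_le_of_lt hle ?_
  rw [← Finset.mul_sum]
  have h5 := count_geom p hp n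
  have h6 : 0 < p * (p - 1) := Nat.mul_pos (by omega) (by omega)
  calc p ^ 2 * (p - 1) * ∑ e ∈ Finset.range n, p ^ (2 * e)
      = (p * (p - 1)) * (p * ∑ e ∈ Finset.range n, p ^ (2 * e)) := by ring
    _ < (p * (p - 1)) * p ^ (2 * n) := Nat.mul_lt_mul_of_pos_left h5 h6
    _ = p ^ (2 * n + 1) * (p - 1) := by ring

end Cfsg.Agent.Lib.Helper84.GC
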