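import Cfsg.Agent.Lib.Helper84.GC.Defs
import Cfsg.Agent.Lib.Helper84.GC.B2A
import Cfsg.Agent.Lib.Helper84.GC.B2X
import Cfsg.Agent.Lib.Helper84.GC.B2C
import Cfsg.Agent.Lib.Helper84.GC.B2D
import Cfsg.Agent.Lib.Helper84.GC.COUNT

set_option autoImplicit false

namespace Cfsg.Agent.Lib.Helper84.GC

open Cfsg
open scoped commutatorElement

/-- CASEB2. -/
theorem caseB2 {P : Type*} [Group P] [Finite P] (p : ℕ) [Fact p.Prime] (hP : IsPGroup p P)
    (h : HG P) (hc : Nat.card (commutator P) = p ^ 2)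
    (hcz : ¬ commutator P ≤ Subgroup.center P) : False := by
  classical
  have := Fintype.ofFinite (IrrCharacter P)
  have hp : p.Prime := Fact.out
  obtain ⟨hle, hZ⟩ := b2a p hP h hc hcz
  obtain ⟨n, hcard, hdeg⟩ := b2c p hP h hc hcz
  have hexp := b2x p hP h hc hcz
  have hnt : Nontrivial P := by
    by_contra hn
    rw [not_nontrivial_iff_subsingleton] at hn
    apply hcz
    intro x _
    rw [Subsingleton.elim x 1]; exact one_mem _
  have h1 := Cfsg.Agent.Lib.Helper82.sum_sq_charDegree (G := P)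
  have h2 := Cfsg.Agent.Lib.Helper82.sum_sq_charDegree_ker (Subgroup.center P)
  have h3 := Finset.sum_filter_add_sum_filter_not (Finset.univ : Finset (IrrCharacter P))
    (fun χ : IrrCharacter P => ∀ x ∈ Subgroup.center P, (χ : P → ℂ) x = (χ : P → ℂ) 1)
    (fun χ => charDegree (χ : P → ℂ) ^ 2)
  rw [h1, h2, hcard] at h3
  have hidx : (Subgroup.center P).index = p ^ (2 * n + 1) := by
    have h4 := Subgroup.card_mul_index (Subgroup.center P)
    rw [hZ, hcard, pow_succ' p (2 * n + 1)] at h4
    exact Nat.eq_of_mul_eq_mul_left hp.pos h4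
  rw [hidx] at h3
  have h5 := count (Finset.univ.filter (fun χ : IrrCharacter P =>
      ¬ ∀ x ∈ Subgroup.center P, (χ : P → ℂ) x = (χ : P → ℂ) 1))
    (fun χ => charDegree (χ : P → ℂ)) p n hp.two_le
    (fun χ hχ => hdeg χ (Finset.mem_filter.1 hχ).2) (by
      intro d
      by_cases hd : d = 1
      · subst hd
        rw [Finset.card_eq_zero.2]
        · exact Nat.zero_le _
        · rw [Finset.filter_eq_empty_iff]
          intro χ hχ hχ1
          obtain ⟨e, he1, _, he⟩ := hdeg χ (Finset.mem_filter.1 hχ).2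
          rw [hχ1] at he
          have : 1 < p ^ e := Nat.one_lt_pow (by omega) hp.one_lt
          omega
      · refine le_trans ?_ (b2d p hP hnt h hexp d hd)
        rw [Nat.card_eq_fintype_card, Fintype.card_subtype]
        apply Finset.card_le_card
        intro χ hχ
        rw [Finset.mem_filter] at hχ ⊢
        exact ⟨Finset.mem_univ _, hχ.2⟩)
  have h6 : p ^ (2 * n + 2) = p ^ (2 * n + 1) + p ^ (2 * n + 1) * (p - 1) := by
    obtain ⟨q, rfl⟩ : ∃ q, p = q + 1 := ⟨p - 1, by have := hp.pos; omega⟩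
    simp only [Nat.add_sub_cancel]
    ring
  omega

end Cfsg.Agent.Lib.Helper84.GC
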