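import Cfsg.Agent.Lib.Helper84.GC.Defs
import Cfsg.Agent.Lib.Helper84.GC.CYC

set_option autoImplicit false

namespace Cfsg.Agent.Lib.Helper84.GC

open Cfsg
open scoped commutatorElement

/-- MINN. -/
theorem exists_normal_order_p {P : Type*} [Group P] [Finite P] (p : ℕ) [Fact p.Prime]
    (hP : IsPGroup p P) (N : Subgroup P) [N.Normal] (hN : N ≠ ⊥) :
    ∃ L : Subgroup P, L.Normal ∧ L ≤ N ∧ Nat.card L = p := by
  have hp : p.Prime := Fact.out
  obtain ⟨z, hzN, hzc, hz1⟩ := Cfsg.Agent.Lib.Helper67.exists_mem_center_of_normal hP N hN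
  obtain ⟨k, hk⟩ := hP z
  -- order of z is p^(m+1)
  obtain ⟨m, hm⟩ : ∃ m, orderOf z = p ^ m := by
    obtain ⟨m, _, hm⟩ := (Nat.dvd_prime_pow hp).1 (orderOf_dvd_of_pow_eq_one hk)
    exact ⟨m, hm⟩
  have hm0 : m ≠ 0 := by
    rintro rfl
    rw [pow_zero, orderOf_eq_one_iff] at hm
    exact hz1 hm
  obtain ⟨m', rfl⟩ := Nat.exists_eq_succ_of_ne_zero hm0
  have ho : orderOf (z ^ (p ^ m')) = p := by
    rw [orderOf_pow_of_dvd (pow_ne_zero _ hp.ne_zero) (by rw [hm]; exact pow_dvd_pow p (Nat.le_succ m')),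
      hm, Nat.succ_eq_add_one, pow_succ, Nat.mul_div_cancel_left _ (pow_pos hp.pos _)]
  refine ⟨Subgroup.zpowers (z ^ (p ^ m')), cyc_normal_zpowers _ (Subgroup.pow_mem _ hzc _), ?_, ?_⟩
  · rw [Subgroup.zpowers_le]; exact Subgroup.pow_mem _ hzN _
  · rw [Nat.card_zpowers, ho]

end Cfsg.Agent.Lib.Helper84.GC
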