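import Cfsg.Agent.Lib.Helper84.GC.Defs
import Cfsg.Agent.Lib.Helper84.GC.CASEA
import Cfsg.Agent.Lib.Helper84.GC.B1S
import Cfsg.Agent.Lib.Helper84.GC.B1F
import Cfsg.Agent.Lib.Helper84.GC.MINN

set_option autoImplicit false

namespace Cfsg.Agent.Lib.Helper84.GC

open Cfsg
open scoped commutatorElement

/-- CASEI. -/
theorem caseI {P : Type*} [Group P] [Finite P] (p : ℕ) [Fact p.Prime] (hP : IsPGroup p P)
    (h : HG P) (hc : Nat.card (commutator P) = p ^ 2)
    (hcz : commutator P ≤ Subgroup.center P) : False := by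
  have hp : p.Prime := Fact.out
  have hne : commutator P ≠ ⊥ := by
    intro h0
    rw [h0, Subgroup.card_bot] at hc
    have := hp.two_le
    nlinarith
  by_cases hw : ∃ w ∈ commutator P, w ^ p ≠ 1
  · obtain ⟨w, hw1, hw2⟩ := hw
    obtain ⟨x, y, hxy⟩ := b1s p hcz w hw1 hw2
    obtain ⟨L, hLn, hLc, hL⟩ := exists_normal_order_p p hP (commutator P) hne
    exact b1f p hP h hc hcz L hL hLc x y hxy
  · push Not at hw
    obtain ⟨w₁, hw₁, hw₁1⟩ : ∃ w₁ : P, w₁ ∈ commutator P ∧ w₁ ≠ 1 := by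
      by_contra hcon
      push Not at hcon
      exact hne ((Subgroup.eq_bot_iff_forall _).2 hcon)
    have ho₁ : orderOf (w₁ : P) = p := orderOf_eq_prime (hw _ hw₁) hw₁1
    have hc₁ : Nat.card (Subgroup.zpowers (w₁ : P)) = p := by rw [Nat.card_zpowers, ho₁]
    have hex : ∃ w₂ ∈ commutator P, w₂ ∉ Subgroup.zpowers (w₁ : P) := by
      by_contra hcon
      push Not at hcon
      have h1 : commutator P ≤ Subgroup.zpowers (w₁ : P) := hcon
      have h2 := Subgroup.card_le_of_le h1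
      rw [hc, hc₁] at h2
      have := hp.two_le
      nlinarith
    obtain ⟨w₂, hw₂, hw₂n⟩ := hex
    have hw₂1 : w₂ ≠ 1 := by
      rintro rfl
      exact hw₂n (one_mem _)
    have ho₂ : orderOf w₂ = p := orderOf_eq_prime (hw _ hw₂) hw₂1
    have hc₂ : Nat.card (Subgroup.zpowers w₂) = p := by rw [Nat.card_zpowers, ho₂]
    have hn₁ := cyc_normal_zpowers (w₁ : P) (hcz hw₁)
    have hn₂ := cyc_normal_zpowers w₂ (hcz hw₂)
    refine caseA p hP h hc (Subgroup.zpowers (w₁ : P)) (Subgroup.zpowers w₂) hc₁ hc₂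
      (by rw [Subgroup.zpowers_le]; exact hw₁) (by rw [Subgroup.zpowers_le]; exact hw₂) ?_
    intro heq
    apply hw₂n
    rw [heq]
    exact Subgroup.mem_zpowers _

end Cfsg.Agent.Lib.Helper84.GC
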