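import Cfsg.Agent.Lib.Helper84.GC.Defs
import Cfsg.Agent.Lib.Helper84.GC.CASEI
import Cfsg.Agent.Lib.Helper84.GC.CASEB2
import Cfsg.Agent.Lib.Helper84.GC.BACK
import Cfsg.Agent.Lib.Helper84.GC.CYC
import Cfsg.Agent.Lib.Helper84.GC.QUOT
import Cfsg.Agent.Lib.Helper84.GC.QC
import Cfsg.Agent.Lib.Helper84.GC.MINN

set_option autoImplicit false

namespace Cfsg.Agent.Lib.Helper84.GC

open Cfsg
open scoped commutatorElement

universe u

theorem card_comm_aux (p : ℕ) [Fact p.Prime] (n : ℕ) :
    ∀ (P : Type u) [Group P] [Finite P], Nat.card P = n → IsPGroup p P → commutator P ≠ ⊥ →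
      HG P → Nat.card (commutator P) = p := by
  induction n using Nat.strong_induction_on with
  | _ n ih =>
    intro P _ _ hn hP hne h
    have hp : p.Prime := Fact.out
    obtain ⟨L, hLn, hLc, hL⟩ := exists_normal_order_p p hP (commutator P) hne
    by_contra hcard
    have hq := card_comm_quot L hLc
    rw [hL] at hq
    have hne' : commutator (P ⧸ L) ≠ ⊥ := by
      intro h0
      rw [h0, Subgroup.card_bot, one_mul] at hq
      exact hcard hq.symm
    have hlt : Nat.card (P ⧸ L) < n := by
      have h1 := Subgroup.card_mul_index L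
      rw [hL, hn, Subgroup.index_eq_card] at h1
      have h2 : 0 < Nat.card (P ⧸ L) := Nat.card_pos
      have h3 := hp.two_le
      nlinarith
    have hPq : IsPGroup p (P ⧸ L) := hP.to_quotient L
    have h4 := ih _ hlt (P ⧸ L) rfl hPq hne' (hg_quot h L)
    rw [h4] at hq
    have hc : Nat.card (commutator P) = p ^ 2 := by rw [← hq, sq]
    by_cases hcz : commutator P ≤ Subgroup.center P
    · exact caseI p hP h hc hcz
    · exact caseB2 p hP h hc hcz

theorem card_comm {P : Type u} [Group P] [Finite P] (p : ℕ) [Fact p.Prime] (hP : IsPGroup p P)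
    (hne : commutator P ≠ ⊥) (h : HG P) : Nat.card (commutator P) = p :=
  card_comm_aux p _ P rfl hP hne h

theorem main {P : Type u} [Group P] [Finite P] (p : ℕ) [Fact p.Prime] (hP : IsPGroup p P)
    (hna : ¬ IsMulCommutative P) :
    HG P ↔ (IsCyclic (Subgroup.center P) ∧ Nat.card (commutator P) = p) := by
  constructor
  · intro h
    have hne : commutator P ≠ ⊥ := by
      intro h0
      apply hna
      refine ⟨⟨fun a b => ?_⟩⟩
      have h1 : ⁅a, b⁆ ∈ commutator P :=
        Subgroup.commutator_mem_commutator (Subgroup.mem_top _) (Subgroup.mem_top _)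
      rw [h0, Subgroup.mem_bot, commutatorElement_eq_one_iff_mul_comm] at h1
      exact h1
    have hc := card_comm p hP hne h
    exact ⟨center_cyclic p hP h hc, hc⟩
  · rintro ⟨hcyc, hc⟩
    exact back p hP hcyc hc

end Cfsg.Agent.Lib.Helper84.GC
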